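import Cfsg.Agent.H43.MCDefs

/-!
# S3905-F5 (piece of helper43's team project): for `x ∈ N ∖ Z(N)`, `C_N(x)` is normal in `N`
or self-normalizing in `N`.
-/

set_option autoImplicit false

namespace Cfsg.Agent.H19.MC

open Cfsg.Agent.H43.MC

universe u

theorem f5 : StF5.{u} := by
  intro G _ _ N hNn h x hxN hxZ
  let M : Submonoid G :=
    { carrier := {n | n ∈ N ∧ ∀ c ∈ N, Commute c x → Commute (n * c * n⁻¹) x}
      one_mem' := ⟨N.one_mem, fun c _ hc => by simpa using hc⟩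
      mul_mem' := by
        rintro a b ⟨ha, ha'⟩ ⟨hb, hb'⟩
        refine ⟨N.mul_mem ha hb, fun c hc hcx => ?_⟩
        have h1 := ha' (b * c * b⁻¹) (N.mul_mem (N.mul_mem hb hc) (N.inv_mem hb)) (hb' c hc hcx)
        have hrew : a * b * c * (a * b)⁻¹ = a * (b * c * b⁻¹) * a⁻¹ := by group
        rw [hrew]; exact h1 }
  let L : Subgroup G :=
    { M with
      inv_mem' := by
        intro a ha
        have h1 : a⁻¹ ∈ Submonoid.powers a := by
          rw [(isOfFinOrder_of_finite a).mem_powers_iff_mem_zpowers]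
          exact Subgroup.inv_mem _ (Subgroup.mem_zpowers a)
        obtain ⟨k, hk⟩ := h1
        have hk' : a ^ k = a⁻¹ := hk
        rw [← hk']
        exact M.pow_mem ha k }
  have hmemL : ∀ n, n ∈ L ↔ n ∈ N ∧ ∀ c ∈ N, Commute c x → Commute (n * c * n⁻¹) x :=
    fun n => Iff.rfl
  have hLN : L ≤ N := fun n hn => ((hmemL n).mp hn).1
  have hinv : ∀ m ∈ Subgroup.centralizer ({x} : Set G), ∀ l ∈ L, m * l * m⁻¹ ∈ L := by
    intro m hm l hl
    have hmx : Commute m x := mem_cent_singleton.mp hm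
    rw [hmemL] at hl ⊢
    refine ⟨hNn.conj_mem l hl.1 m, fun c hc hcx => ?_⟩
    have h1 : Commute (m⁻¹ * c * m) x := (hmx.inv_left.mul_left hcx).mul_left hmx
    have hcN : m⁻¹ * c * m ∈ N := by
      have h0 := hNn.conj_mem c hc m⁻¹
      simpa using h0
    have h2 := hl.2 (m⁻¹ * c * m) hcN h1
    have h3 : Commute (m * (l * (m⁻¹ * c * m) * l⁻¹) * m⁻¹) x :=
      (hmx.mul_left h2).mul_left hmx.inv_left
    have hrew : m * l * m⁻¹ * c * (m * l * m⁻¹)⁻¹ = m * (l * (m⁻¹ * c * m) * l⁻¹) * m⁻¹ := by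
      group
    rw [hrew]; exact h3
  rcases f6 h hxN hxZ L hLN hinv with h1 | h1
  · right
    intro n hn hnc
    exact mem_cent_singleton.mp (h1 ((hmemL n).mpr ⟨hn, hnc⟩))
  · left
    intro n hn c' hc' hc'x
    obtain ⟨l, hl, c, hc, hcx, rfl⟩ := h1 n hn
    have hcx' : Commute c x := mem_cent_singleton.mp hcx
    have h2 : Commute (c * c' * c⁻¹) x := (hcx'.mul_left hc'x).mul_left hcx'.inv_left
    have h3 := ((hmemL l).mp hl).2 (c * c' * c⁻¹)
      (N.mul_mem (N.mul_mem hc hc') (N.inv_mem hc)) h2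
    have hrew : l * c * c' * (l * c)⁻¹ = l * (c * c' * c⁻¹) * l⁻¹ := by group
    rw [hrew]; exact h3

example : StF5.{u} := f5

end Cfsg.Agent.H19.MC
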