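import Cfsg.Agent.H43.MCDefs

/-!
# S3905-MAINB (piece of helper43's team project): for `y ∈ N` not centralizing a good `L`,
`N = L · C_N(y)` and `L ∩ C_G(y) ≤ Z(N)`.
-/

set_option autoImplicit false

namespace Cfsg.Agent.H19.MC

open Cfsg.Agent.H43.MC

universe u

theorem mainB : StMainB.{u} := by
  intro G _ _ N _ h p L hL y hyN ⟨l₀, hl₀, hl₀y⟩
  have hyZ : y ∉ Subgroup.centralizer (N : Set G) := by
    intro hc
    rw [mem_cent_set] at hc
    exact hl₀y (hc l₀ (hL.hLN hl₀))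
  have h1 : ∀ n ∈ N, ∃ l ∈ L, ∃ c ∈ N, Commute c y ∧ n = l * c := by
    rcases f6 h hyN hyZ L hL.hLN (fun m _ l hl => hL.hnorm.conj_mem l hl m) with h1 | h1
    · exact absurd (mem_cent_singleton.mp (h1 hl₀)) hl₀y
    · intro n hn
      obtain ⟨l, hl, c, hc, hcy, rfl⟩ := h1 n hn
      exact ⟨l, hl, c, hc, mem_cent_singleton.mp hcy, rfl⟩
  refine ⟨h1, ?_⟩
  have hZT : ZN N ≤ L ⊓ Subgroup.centralizer ({y} : Set G) := by
    intro z hz
    have h2 := mem_cent_set.mp (mem_ZN.mp hz).2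
    exact Subgroup.mem_inf.mpr ⟨hL.hZL hz, mem_cent_singleton.mpr (h2 y hyN).symm⟩
  have hTn : (L ⊓ Subgroup.centralizer ({y} : Set G)).Normal := by
    constructor
    intro t ht g
    obtain ⟨n, hn, m, hm, rfl⟩ := gnm h hyN hyZ g
    obtain ⟨l, hl, c, hc, hcy, rfl⟩ := h1 n hn
    have hm' : c * m ∈ Subgroup.centralizer ({y} : Set G) :=
      Subgroup.mul_mem _ (mem_cent_singleton.mpr hcy) hm
    have ht0 := Subgroup.mem_inf.mp ht
    have ht' : (c * m) * t * (c * m)⁻¹ ∈ L ⊓ Subgroup.centralizer ({y} : Set G) :=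
      Subgroup.mem_inf.mpr ⟨hL.hnorm.conj_mem t ht0.1 _,
        Subgroup.mul_mem _ (Subgroup.mul_mem _ hm' ht0.2) (Subgroup.inv_mem _ hm')⟩
    have hz : l * ((c * m) * t * (c * m)⁻¹) * l⁻¹ * ((c * m) * t * (c * m)⁻¹)⁻¹ ∈ ZN N :=
      hL.hcomm l hl _ (Subgroup.mem_inf.mp ht').1
    have hrew : l * c * m * t * (l * c * m)⁻¹ =
        (l * ((c * m) * t * (c * m)⁻¹) * l⁻¹ * ((c * m) * t * (c * m)⁻¹)⁻¹) *
          ((c * m) * t * (c * m)⁻¹) := by group
    rw [hrew]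
    exact Subgroup.mul_mem _ (hZT hz) ht'
  intro l hl hly
  rcases hL.hmin _ hTn hZT inf_le_left with hT | hT
  · exact hT (Subgroup.mem_inf.mpr ⟨hl, mem_cent_singleton.mpr hly⟩)
  · exfalso
    have hmem : l₀ ∈ L ⊓ Subgroup.centralizer ({y} : Set G) := by rw [hT]; exact hl₀
    exact hl₀y (mem_cent_singleton.mp (Subgroup.mem_inf.mp hmem).2)

example : StMainB.{u} := mainB

end Cfsg.Agent.H19.MC
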