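import Cfsg.Agent.H64.MgDefs

/-!
# MG-CNTB (piece of helper64's S3620 project): counting in a 2-design, first case.
-/

set_option autoImplicit false

namespace Cfsg.Agent.H19.Mg

open Cfsg.Agent.H64.Mg

universe v

theorem cntB : CNTBStmt.{v} := by
  intro α _ _ 𝒯 m lam hm hlam hlam1 hm2 a x y hxa hya hxy hT
  have hdc := Finset.sum_card_bipartiteAbove_eq_sum_card_bipartiteBelow
    (s := 𝒯.filter (fun T => x ∈ T)) (t := (Finset.univ.erase x : Finset α))
    (r := fun T z => z ∈ T)
  have hL : ∀ T ∈ 𝒯.filter (fun T => x ∈ T),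
      (Finset.bipartiteAbove (fun (T : Finset α) z => z ∈ T)
        (Finset.univ.erase x : Finset α) T).card = m - 1 := by
    intro T hTs
    rw [Finset.mem_filter] at hTs
    have hrew : Finset.bipartiteAbove (fun (T : Finset α) z => z ∈ T)
        (Finset.univ.erase x : Finset α) T = T.erase x := by
      ext z
      simp only [Finset.bipartiteAbove, Finset.mem_filter, Finset.mem_erase, Finset.mem_univ,
        and_true]
    rw [hrew, Finset.card_erase_of_mem hTs.2, hm T hTs.1]
  have hR : ∀ z ∈ (Finset.univ.erase x : Finset α),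
      (Finset.bipartiteBelow (fun (T : Finset α) z => z ∈ T)
        (𝒯.filter (fun T => x ∈ T)) z).card = lam := by
    intro z hz
    rw [Finset.mem_erase] at hz
    have hrew : Finset.bipartiteBelow (fun (T : Finset α) z => z ∈ T)
        (𝒯.filter (fun T => x ∈ T)) z = 𝒯.filter (fun T => x ∈ T ∧ z ∈ T) := by
      ext T
      simp only [Finset.bipartiteBelow, Finset.mem_filter]
      tauto
    rw [hrew]; exact hlam x z (Ne.symm hz.1)
  rw [Finset.sum_congr rfl hL, Finset.sum_congr rfl hR, Finset.sum_const, Finset.sum_const,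
    smul_eq_mul, smul_eq_mul, Finset.card_erase_of_mem (Finset.mem_univ x),
    Finset.card_univ] at hdc
  have hr : (𝒯.filter (fun T => x ∈ T)).card ≤ 2 * lam := by
    have hsub : 𝒯.filter (fun T => x ∈ T) ⊆
        𝒯.filter (fun T => x ∈ T ∧ a ∈ T) ∪ 𝒯.filter (fun T => x ∈ T ∧ y ∈ T) := by
      intro T hTs
      rw [Finset.mem_filter] at hTs
      rw [Finset.mem_union, Finset.mem_filter, Finset.mem_filter]
      by_cases haT : a ∈ T
      · exact Or.inl ⟨hTs.1, hTs.2, haT⟩
      · exact Or.inr ⟨hTs.1, hTs.2, hT T hTs.1 haT hTs.2⟩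
    calc (𝒯.filter (fun T => x ∈ T)).card
        ≤ (𝒯.filter (fun T => x ∈ T ∧ a ∈ T) ∪ 𝒯.filter (fun T => x ∈ T ∧ y ∈ T)).card :=
          Finset.card_le_card hsub
      _ ≤ (𝒯.filter (fun T => x ∈ T ∧ a ∈ T)).card +
          (𝒯.filter (fun T => x ∈ T ∧ y ∈ T)).card := Finset.card_union_le _ _
      _ = 2 * lam := by rw [hlam x a hxa, hlam x y hxy]; ring
  have hN : 1 ≤ Fintype.card α := Fintype.card_pos_iff.mpr ⟨x⟩
  have h1 : (Fintype.card α - 1) * lam ≤ 2 * lam * (m - 1) := by
    rw [← hdc]; exact Nat.mul_le_mul_right _ hr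
  have h2 : Fintype.card α - 1 ≤ 2 * (m - 1) := by
    have h3 : (Fintype.card α - 1) * lam ≤ (2 * (m - 1)) * lam := by
      calc (Fintype.card α - 1) * lam ≤ 2 * lam * (m - 1) := h1
        _ = (2 * (m - 1)) * lam := by ring
    exact Nat.le_of_mul_le_mul_right h3 (by omega)
  omega

example : CNTBStmt.{v} := cntB

end Cfsg.Agent.H19.Mg
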