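import Cfsg.Agent.H64.MgDefs

/-!
# MG-CONJ (piece of helper64's S3620 project): two `JC` sets of the same size with large
intersection are conjugate under the pointwise stabilizer of the intersection.
-/

set_option autoImplicit false
open scoped Pointwise
open MulAction

namespace Cfsg.Agent.H19.Mg

open Cfsg.Agent.H64.Mg

universe u v

theorem conj : CONJStmt.{u, v} := by
  intro M α _ _ _ _ Δ₁ Δ₂ hcard h1 h2 hlt
  suffices H : ∀ n : ℕ, ∀ Δ₁ : Finset α, Δ₁.card = Δ₂.card → JC M Δ₁ →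
      2 * Δ₁.card < Fintype.card α + (Δ₁ ∩ Δ₂).card → Δ₁.card - (Δ₁ ∩ Δ₂).card = n →
      ∃ h : M, (∀ z ∈ Δ₁ ∩ Δ₂, h • z = z) ∧ h • Δ₁ = Δ₂ from
    H _ Δ₁ hcard h1 hlt rfl
  intro n
  induction n using Nat.strong_induction_on with
  | _ n ih =>
    intro Δ₁ hcard h1 hlt hn
    by_cases heq : Δ₁ = Δ₂
    · exact ⟨1, fun z _ => one_smul _ z, by rw [one_smul, heq]⟩
    have hx : ∃ x ∈ Δ₁, x ∉ Δ₂ := by
      by_contra hcon
      push Not at hcon
      exact heq (Finset.eq_of_subset_of_card_le hcon hcard.ge)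
    have hy : ∃ y ∈ Δ₂, y ∉ Δ₁ := by
      by_contra hcon
      push Not at hcon
      exact heq (Finset.eq_of_subset_of_card_le hcon hcard.le).symm
    obtain ⟨x, hx1, hx2⟩ := hx
    obtain ⟨y, hy2, hy1⟩ := hy
    have hunion : (Δ₁ ∪ Δ₂).card + (Δ₁ ∩ Δ₂).card = Δ₁.card + Δ₂.card :=
      Finset.card_union_add_card_inter Δ₁ Δ₂
    have hz : ∃ z, z ∉ Δ₁ ∧ z ∉ Δ₂ := by
      by_contra hcon
      push Not at hcon
      have hu : (Δ₁ ∪ Δ₂) = Finset.univ := by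
        ext z; simp only [Finset.mem_union, Finset.mem_univ, iff_true]
        by_cases hz1 : z ∈ Δ₁
        · exact Or.inl hz1
        · exact Or.inr (hcon z hz1)
      rw [hu, Finset.card_univ] at hunion
      omega
    have hX : JC M (Δ₁ ∩ Δ₂) := h1.inter h2 hz
    have hxX : x ∉ Δ₁ ∩ Δ₂ := fun h => hx2 (Finset.mem_inter.mp h).2
    have hyX : y ∉ Δ₁ ∩ Δ₂ := fun h => hy1 (Finset.mem_inter.mp h).1
    obtain ⟨g, hg, hgx⟩ := hX x hxX y hyX
    have hsub : insert y (Δ₁ ∩ Δ₂) ⊆ (g • Δ₁) ∩ Δ₂ := by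
      intro w hw
      rw [Finset.mem_insert] at hw
      rw [Finset.mem_inter, Finset.mem_smul_finset]
      rcases hw with rfl | hw
      · exact ⟨⟨x, hx1, hgx⟩, hy2⟩
      · exact ⟨⟨w, (Finset.mem_inter.mp hw).1, hg w hw⟩, (Finset.mem_inter.mp hw).2⟩
    have hcard' : (g • Δ₁).card = Δ₁.card := Finset.card_smul_finset g Δ₁
    have hc2 : (Δ₁ ∩ Δ₂).card + 1 ≤ ((g • Δ₁) ∩ Δ₂).card := by
      rw [← Finset.card_insert_of_notMem hyX]
      exact Finset.card_le_card hsub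
    have hXlt : (Δ₁ ∩ Δ₂).card < Δ₁.card := by
      apply Finset.card_lt_card
      rw [Finset.ssubset_iff_of_subset Finset.inter_subset_left]
      exact ⟨x, hx1, hxX⟩
    obtain ⟨h₂, hh₂, hh₂'⟩ := ih ((g • Δ₁).card - ((g • Δ₁) ∩ Δ₂).card) (by omega) (g • Δ₁)
      (by rw [hcard', hcard]) (h1.smul g) (by omega) rfl
    refine ⟨h₂ * g, fun z hz => ?_, ?_⟩
    · rw [mul_smul, hg z hz]
      exact hh₂ z (hsub (Finset.mem_insert_of_mem hz))
    · rw [mul_smul]; exact hh₂'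

example : CONJStmt.{u, v} := conj

end Cfsg.Agent.H19.Mg
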