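import Cfsg.Agent.H64.MgDefs

/-!
# MG-TR1 (piece of helper64's S3620 project): one more step of transitivity from a single
`JC` set of size `t`.
-/

set_option autoImplicit false
open scoped Pointwise
open MulAction

namespace Cfsg.Agent.H19.Mg

open Cfsg.Agent.H64.Mg

universe u v

theorem tr1 : TR1Stmt.{u, v} := by
  intro M α _ _ _ t hKT T hT hJT S hS
  rcases Nat.lt_or_eq_of_le (Nat.lt_succ_iff.mp hS) with hlt | heq
  · exact hKT S hlt
  suffices H : ∀ n : ℕ, ∀ T : Finset α, T.card = t → JC M T → (T \ S).card = n →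
      ∃ g : M, g • T = S by
    obtain ⟨g, hg⟩ := H _ T hT hJT rfl
    rw [← hg]; exact hJT.smul g
  intro n
  induction n with
  | zero =>
    intro T hT hJT h0
    refine ⟨1, ?_⟩
    rw [one_smul]
    rw [Finset.card_eq_zero, Finset.sdiff_eq_empty_iff_subset] at h0
    exact Finset.eq_of_subset_of_card_le h0 (by omega)
  | succ n ih =>
    intro T hT hJT hn
    have hne : (T \ S).Nonempty := by rw [← Finset.card_pos]; omega
    obtain ⟨x, hx⟩ := hne
    have hx' := Finset.mem_sdiff.mp hx
    have hy : ∃ y ∈ S, y ∉ T := by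
      by_contra hcon
      push Not at hcon
      have hST : S = T := Finset.eq_of_subset_of_card_le hcon (by omega)
      rw [hST] at hx'; exact hx'.2 hx'.1
    obtain ⟨y, hyS, hyT⟩ := hy
    have hpos := Finset.card_pos.mpr ⟨x, hx'.1⟩
    have hT' : (T.erase x).card < t := by rw [Finset.card_erase_of_mem hx'.1]; omega
    obtain ⟨g, hg, hgx⟩ := hKT (T.erase x) hT' x (Finset.notMem_erase x T) y
      (fun h => hyT (Finset.mem_of_mem_erase h))
    have hgT : g • T = insert y (T.erase x) := by
      ext w
      rw [Finset.mem_smul_finset, Finset.mem_insert]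
      constructor
      · rintro ⟨v, hv, rfl⟩
        by_cases hvx : v = x
        · left; rw [hvx]; exact hgx
        · right
          rw [hg v (Finset.mem_erase.mpr ⟨hvx, hv⟩)]
          exact Finset.mem_erase.mpr ⟨hvx, hv⟩
      · rintro (rfl | hw)
        · exact ⟨x, hx'.1, hgx⟩
        · exact ⟨w, Finset.mem_of_mem_erase hw, hg w hw⟩
    have hcard : (g • T).card = t := by rw [Finset.card_smul_finset, hT]
    have hsd : ((g • T) \ S).card = n := by
      have hrew : (g • T) \ S = (T \ S).erase x := by
        rw [hgT]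
        ext w
        simp only [Finset.mem_sdiff, Finset.mem_insert, Finset.mem_erase]
        constructor
        · rintro ⟨rfl | ⟨h1, h2⟩, h3⟩
          · exact absurd hyS h3
          · exact ⟨h1, h2, h3⟩
        · rintro ⟨h1, h2, h3⟩
          exact ⟨Or.inr ⟨h1, h2⟩, h3⟩
      rw [hrew, Finset.card_erase_of_mem hx, hn]; rfl
    obtain ⟨g₂, hg₂⟩ := ih (g • T) hcard (hJT.smul g) hsd
    exact ⟨g₂ * g, by rw [mul_smul]; exact hg₂⟩

example : TR1Stmt.{u, v} := tr1

end Cfsg.Agent.H19.Mg
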