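import Cfsg.Agent.H34.PgDefs

/-!
# PG-EXT (helper19, for helper34, S3663): split extensions by powers of an abelian group of
exponent 5 on which the elements of order 13 act without fixed points have the same prime
graph.
-/

set_option autoImplicit false

namespace Cfsg.Agent.H19.PG

open Cfsg.Agent.H34.PG

section Gen

variable {G₀ : Type*} [Group G₀] [Finite G₀] {B : Type*} [CommGroup B] [Finite B]
  (φ : G₀ →* MulAut B)

omit [Finite G₀] in
theorem card_pow_five (h5 : ∀ b : B, b ^ 5 = 1) : ∃ n : ℕ, Nat.card B = 5 ^ n := by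
  haveI : Fact (Nat.Prime 5) := ⟨by norm_num⟩
  have hp : IsPGroup 5 B := fun b => ⟨1, by rw [pow_one]; exact h5 b⟩
  exact IsPGroup.iff_card.mp hp

omit [Finite B] [Finite G₀] in
/-- the order of `y.right` divides the order of `y`, which divides five times it, and
`y ^ orderOf y.right` lies in the kernel. -/
theorem sd_order_dvd (h5 : ∀ b : B, b ^ 5 = 1) (y : B ⋊[φ] G₀) :
    orderOf y.right ∣ orderOf y ∧ orderOf y ∣ orderOf y.right * 5 ∧
      ∃ b : B, (SemidirectProduct.inl b : B ⋊[φ] G₀) = y ^ orderOf y.right := by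
  have h1 : orderOf y.right ∣ orderOf y :=
    orderOf_map_dvd (SemidirectProduct.rightHom : B ⋊[φ] G₀ →* G₀) y
  have h2 : (y ^ orderOf y.right) ∈ (SemidirectProduct.rightHom : B ⋊[φ] G₀ →* G₀).ker := by
    rw [MonoidHom.mem_ker, map_pow]
    show y.right ^ orderOf y.right = 1
    exact pow_orderOf_eq_one _
  rw [← SemidirectProduct.range_inl_eq_ker_rightHom] at h2
  obtain ⟨b, hb⟩ := h2
  refine ⟨h1, ?_, b, hb⟩
  apply orderOf_dvd_of_pow_eq_one
  rw [pow_mul, ← hb, ← map_pow, h5, map_one]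

omit [Finite B] in
theorem sd_order_five_mul (h5 : ∀ b : B, b ^ 5 = 1)
    (hpr : ∀ p : ℕ, p.Prime → p ∣ Nat.card G₀ → p = 2 ∨ p = 3 ∨ p = 5 ∨ p = 13)
    (h10 : ∃ x : G₀, orderOf x = 10) (h15 : ∃ x : G₀, orderOf x = 15)
    (hfpf : ∀ g : G₀, orderOf g = 13 → ∀ b : B, φ g b = b → b = 1)
    (q : ℕ) (hq : q.Prime) (hq5 : q ≠ 5) (y : B ⋊[φ] G₀) (hy : orderOf y = 5 * q) :
    ∃ g : G₀, orderOf g = 5 * q := by
  obtain ⟨h1, h4, b, hb⟩ := sd_order_dvd φ h5 y
  obtain ⟨n, hn⟩ : ∃ n : ℕ, n = orderOf y.right := ⟨_, rfl⟩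
  rw [← hn] at h1 h4 hb
  rw [hy] at h1 h4
  have h5' : q ∣ n := by
    rw [mul_comm n 5] at h4
    exact Nat.dvd_of_mul_dvd_mul_left (by norm_num) h4
  obtain ⟨m, hm⟩ := h5'
  have hm5 : m ∣ 5 := by
    rw [hm, mul_comm 5 q] at h1
    exact Nat.dvd_of_mul_dvd_mul_left hq.pos h1
  rcases (Nat.dvd_prime (by norm_num : Nat.Prime 5)).mp hm5 with rfl | rfl
  · rw [mul_one] at hm
    have hgq : orderOf y.right = q := by rw [← hn, hm]
    have hqd : q ∣ Nat.card G₀ := by
      rw [← hgq]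
      exact orderOf_dvd_natCard _
    rcases hpr q hq hqd with rfl | rfl | rfl | rfl
    · obtain ⟨x, hx⟩ := h10
      exact ⟨x, by rw [hx]⟩
    · obtain ⟨x, hx⟩ := h15
      exact ⟨x, by rw [hx]⟩
    · exact absurd rfl hq5
    · exfalso
      have hcomm : y * (SemidirectProduct.inl b : B ⋊[φ] G₀) = SemidirectProduct.inl b * y := by
        rw [hb]
        exact (pow_mul_comm' y n).symm
      have hleft := congrArg SemidirectProduct.left hcomm
      rw [SemidirectProduct.mul_left, SemidirectProduct.mul_left, SemidirectProduct.left_inl,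
        SemidirectProduct.right_inl, map_one, MulAut.one_apply, mul_comm b y.left] at hleft
      have hfix : φ y.right b = b := mul_left_cancel hleft
      have hb1 : b = 1 := hfpf y.right hgq b hfix
      rw [hb1, map_one] at hb
      have hdvd : orderOf y ∣ n := orderOf_dvd_of_pow_eq_one hb.symm
      rw [hy, hm] at hdvd
      have := Nat.le_of_dvd (by norm_num) hdvd
      omega
  · exact ⟨y.right, by rw [← hn, hm, mul_comm]⟩

theorem sd_graph (h5 : ∀ b : B, b ^ 5 = 1)
    (hpr : ∀ p : ℕ, p.Prime → p ∣ Nat.card G₀ → p = 2 ∨ p = 3 ∨ p = 5 ∨ p = 13)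
    (h5d : 5 ∣ Nat.card G₀)
    (h10 : ∃ x : G₀, orderOf x = 10) (h15 : ∃ x : G₀, orderOf x = 15)
    (hfpf : ∀ g : G₀, orderOf g = 13 → ∀ b : B, φ g b = b → b = 1) :
    (∀ p : ℕ, p.Prime → (p ∣ Nat.card G₀ ↔ p ∣ Nat.card (B ⋊[φ] G₀))) ∧
    (∀ p q : ℕ, p.Prime → q.Prime → p ≠ q →
      ((∃ g : G₀, orderOf g = p * q) ↔ (∃ g : B ⋊[φ] G₀, orderOf g = p * q))) := by
  constructor
  · intro p hp
    rw [SemidirectProduct.card]
    constructor
    · exact fun h => dvd_mul_of_dvd_right h _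
    · intro h
      rcases (Nat.Prime.dvd_mul hp).mp h with h | h
      · obtain ⟨n, hn⟩ := card_pow_five h5
        rw [hn] at h
        have := (Nat.prime_dvd_prime_iff_eq hp (by norm_num)).mp (hp.dvd_of_dvd_pow h)
        rw [this]
        exact h5d
      · exact h
  · intro p q hp hq hpq
    constructor
    · rintro ⟨g, hg⟩
      exact ⟨SemidirectProduct.inr g,
        by rw [orderOf_injective _ SemidirectProduct.inr_injective, hg]⟩
    · rintro ⟨y, hy⟩
      by_cases hp5 : p = 5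
      · subst hp5
        exact sd_order_five_mul φ h5 hpr h10 h15 hfpf q hq (Ne.symm hpq) y hy
      by_cases hq5 : q = 5
      · subst hq5
        obtain ⟨g, hg⟩ := sd_order_five_mul φ h5 hpr h10 h15 hfpf p hp hp5 y
          (by rw [hy, mul_comm])
        exact ⟨g, by rw [hg, mul_comm]⟩
      · obtain ⟨h1, h4, -⟩ := sd_order_dvd φ h5 y
        rw [hy] at h1 h4
        have hc : Nat.Coprime (p * q) 5 :=
          Nat.Coprime.mul_left ((Nat.coprime_primes hp (by norm_num)).mpr hp5)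
            ((Nat.coprime_primes hq (by norm_num)).mpr hq5)
        exact ⟨y.right, Nat.dvd_antisymm h1 (hc.dvd_of_dvd_mul_right h4)⟩

end Gen

theorem ext : StExt := by
  intro G₀ _ _ A _ _ φ h5 hne hpr h5d h10 h15 hfpf N
  obtain ⟨ψ, hψ⟩ : ∃ ψ : G₀ →* MulAut (Fin N → A), ∀ g f i, ψ g f i = φ g (f i) := by
    refine ⟨{ toFun := fun g => MulEquiv.piCongrRight (fun _ => φ g)
              map_one' := ?_
              map_mul' := ?_ }, fun g f i => rfl⟩
    · ext f i
      simp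
    · intro g h
      ext f i
      simp
  haveI : Finite ((Fin N → A) ⋊[ψ] G₀) := Finite.of_equiv _ SemidirectProduct.equivProd.symm
  have hB5 : ∀ f : Fin N → A, f ^ 5 = 1 := by
    intro f
    ext i
    simp [h5]
  have hBfpf : ∀ g : G₀, orderOf g = 13 → ∀ f : Fin N → A, ψ g f = f → f = 1 := by
    intro g hg f hf
    ext i
    exact hfpf g hg (f i) (by rw [← hψ, hf])
  obtain ⟨hA, hB⟩ := sd_graph ψ hB5 hpr h5d h10 h15 hBfpf
  refine ⟨(Fin N → A) ⋊[ψ] G₀, inferInstance, inferInstance, ?_, hA, hB⟩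
  rw [SemidirectProduct.card, Nat.card_fun, Nat.card_fin]
  have h2 : 2 ≤ Nat.card A := by
    obtain ⟨a, ha⟩ := hne
    haveI : Nontrivial A := ⟨⟨a, 1, ha⟩⟩
    exact Finite.one_lt_card_iff_nontrivial.mpr inferInstance
  have h3 : 0 < Nat.card G₀ := Nat.card_pos
  calc N < 2 ^ N := Nat.lt_two_pow_self
    _ ≤ Nat.card A ^ N := Nat.pow_le_pow_left h2 N
    _ ≤ Nat.card A ^ N * Nat.card G₀ := Nat.le_mul_of_pos_right _ h3

example : Cfsg.Agent.H34.PG.StExt := ext

end Cfsg.Agent.H19.PG
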