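import Cfsg.Agent.H7.PsDefs

/-!
# PS-F2 (piece for helper7's S3664 project): an involution of `Sp₆(3)` commuting with an element
of order 13 is `±1`
-/

set_option autoImplicit false

namespace Cfsg.Agent.H19.Ps

open Matrix Cfsg.Agent.H7.Ps

theorem f2 (h1 : StF1) : StF2 := by
  intro B T hBsp hTsp hB hBne hTB hTT
  have hBJ : B * J (Fin 3) (ZMod 3) * Bᵀ = J (Fin 3) (ZMod 3) := SymplecticGroup.mem_iff.mp hBsp
  have hTJ0 : T * J (Fin 3) (ZMod 3) * Tᵀ = J (Fin 3) (ZMod 3) := SymplecticGroup.mem_iff.mp hTsp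
  generalize hJm : J (Fin 3) (ZMod 3) = Jm at hBJ hTJ0
  have h3 : (1 : Mat) + 1 + 1 = 0 := by
    have h : ((1 : ZMod 3) + 1 + 1) = 0 := by decide
    calc (1 : Mat) + 1 + 1 = ((1 : ZMod 3) + 1 + 1) • (1 : Mat) := by simp [add_smul]
      _ = 0 := by rw [h, zero_smul]
  have hPQ1 : (-1 - T) + (T - 1) = 1 := by
    have : (-1 - T) + (T - 1) = 1 - ((1 : Mat) + 1 + 1) := by abel
    rw [this, h3, sub_zero]
  have hPQ : (-1 - T) * (T - 1) = 0 := by
    have : (-1 - T) * (T - 1) = 1 - T * T := by noncomm_ring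
    rw [this, hTT, sub_self]
  have hQP : (T - 1) * (-1 - T) = 0 := by
    have : (T - 1) * (-1 - T) = 1 - T * T := by noncomm_ring
    rw [this, hTT, sub_self]
  have hPP : (-1 - T) * (-1 - T) = -1 - T := by
    have : (-1 - T) * (-1 - T) = (-1 - T) + ((1 : Mat) + 1 + 1) + ((1 : Mat) + 1 + 1) * T - (1 - T * T) := by
      noncomm_ring
    rw [this, h3, hTT]
    simp
  have hQQ : (T - 1) * (T - 1) = T - 1 := by
    have : (T - 1) * (T - 1) = (T - 1) - ((1 : Mat) + 1 + 1) * T + ((1 : Mat) + 1 + 1) - (1 - T * T) := by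
      noncomm_ring
    rw [this, h3, hTT]
    simp
  have hc : Commute B T := hTB.symm
  have hcP : Commute B (-1 - T) := ((Commute.one_right B).neg_right).sub_right hc
  have hcQ : Commute B (T - 1) := hc.sub_right (Commute.one_right B)
  have hTJ : T * Jm = Jm * Tᵀ := by
    calc T * Jm = T * (T * Jm * Tᵀ) := by rw [hTJ0]
      _ = (T * T) * Jm * Tᵀ := by simp only [mul_assoc]
      _ = Jm * Tᵀ := by rw [hTT, one_mul]
  have hPJ : (-1 - T) * Jm = Jm * (-1 - T)ᵀ := by
    rw [Matrix.transpose_sub, Matrix.transpose_neg, Matrix.transpose_one, sub_mul, mul_sub, hTJ]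
    simp
  have hQJ : (T - 1) * Jm = Jm * (T - 1)ᵀ := by
    rw [Matrix.transpose_sub, Matrix.transpose_one, sub_mul, mul_sub, hTJ]
    simp
  generalize hP : -1 - T = P at *
  generalize hQ : T - 1 = Q at *
  have e1 : P * B * Jm * (Bᵀ * Pᵀ) = P * Jm := by
    calc P * B * Jm * (Bᵀ * Pᵀ) = P * (B * Jm * Bᵀ) * Pᵀ := by simp only [mul_assoc]
      _ = P * (Jm * Pᵀ) := by rw [hBJ, mul_assoc]
      _ = P * Jm := by rw [← hPJ, ← mul_assoc, hPP]
  have e2 : P * B * Jm * Qᵀ = 0 := by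
    calc P * B * Jm * Qᵀ = P * B * (Jm * Qᵀ) := by simp only [mul_assoc]
      _ = P * (B * Q) * Jm := by rw [← hQJ]; simp only [mul_assoc]
      _ = 0 := by rw [hcQ.eq, ← mul_assoc, hPQ, zero_mul, zero_mul]
  have e3 : Q * Jm * (Bᵀ * Pᵀ) = 0 := by
    calc Q * Jm * (Bᵀ * Pᵀ) = Jm * (Qᵀ * (Bᵀ * Pᵀ)) := by rw [hQJ]; simp only [mul_assoc]
      _ = Jm * (P * B * Q)ᵀ := by rw [Matrix.transpose_mul, Matrix.transpose_mul]
      _ = 0 := by
        rw [mul_assoc P B Q, hcQ.eq, ← mul_assoc, hPQ, zero_mul, Matrix.transpose_zero, mul_zero]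
  have e4 : Q * Jm * Qᵀ = Q * Jm := by rw [mul_assoc, ← hQJ, ← mul_assoc, hQQ]
  have hB1sp : (P * B + Q) * Jm * (P * B + Q)ᵀ = Jm := by
    rw [Matrix.transpose_add, Matrix.transpose_mul, add_mul, add_mul, mul_add, mul_add, e1, e2, e3,
      e4, add_zero, zero_add, ← add_mul, hPQ1, one_mul]
  have hpow : ∀ n : ℕ, (P * B + Q) ^ (n + 1) = P * B ^ (n + 1) + Q := by
    intro n
    induction n with
    | zero => simp
    | succ n ih =>
      have t1 : P * B ^ (n + 1) * (P * B) = P * B ^ (n + 1 + 1) := by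
        rw [mul_assoc, ← mul_assoc (B ^ (n + 1)) P B, (hcP.pow_left (n + 1)).eq, mul_assoc P,
          ← pow_succ, ← mul_assoc, hPP]
      have t2 : P * B ^ (n + 1) * Q = 0 := by
        rw [mul_assoc, (hcQ.pow_left (n + 1)).eq, ← mul_assoc, hPQ, zero_mul]
      have t3 : Q * (P * B) = 0 := by rw [← mul_assoc, hQP, zero_mul]
      rw [pow_succ, ih, add_mul, mul_add, mul_add, t1, t2, t3, hQQ, add_zero, zero_add]
  have hB13 : (P * B + Q) ^ 13 = 1 := by
    have h13 := hpow 12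
    rw [show 12 + 1 = 13 from rfl] at h13
    rw [h13, hB, mul_one, hPQ1]
  by_cases hQ0 : Q = 0
  · left
    rw [← hQ] at hQ0
    exact sub_eq_zero.mp hQ0
  · right
    obtain ⟨w, hw⟩ : ∃ w, Q.mulVec w ≠ 0 := by
      by_contra hcon
      push Not at hcon
      apply hQ0
      ext i j
      have h4 := congrFun (hcon (Pi.single j 1)) i
      simpa using h4
    have hfixv : (P * B + Q).mulVec (Q.mulVec w) = Q.mulVec w := by
      rw [Matrix.mulVec_mulVec, add_mul, mul_assoc, hcQ.eq, ← mul_assoc, hPQ, zero_mul, zero_add, hQQ]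
    have hB1 : P * B + Q = 1 := by
      by_contra hne
      have hmem : P * B + Q ∈ Sp := by
        rw [SymplecticGroup.mem_iff, hJm]; exact hB1sp
      exact hw (h1 (P * B + Q) hmem hB13 hne _ hfixv)
    have hPB : P * B = P := by
      have h5 : P * B + Q = P + Q := by rw [hB1, hPQ1]
      exact add_right_cancel h5
    have hP0 : P = 0 := by
      ext i j
      have hv : B.mulVec (P.mulVec (Pi.single j 1)) = P.mulVec (Pi.single j 1) := by
        rw [Matrix.mulVec_mulVec, hcP.eq, hPB]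
      have h4 := congrFun (h1 B hBsp hB hBne _ hv) i
      simpa using h4
    rw [← hP] at hP0
    exact (sub_eq_zero.mp hP0).symm

example : Cfsg.Agent.H7.Ps.StF1 → Cfsg.Agent.H7.Ps.StF2 := f2

end Cfsg.Agent.H19.Ps
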