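import Cfsg.Agent.H45.S43Defs

/-!
# S43-COUNTA (helper19, for helper45, S2343): if all characters non-trivial on `Z` occur and
also one trivial on `Z`, then `q² - q + 1 ≤ k`.
-/

set_option autoImplicit false

namespace Cfsg.Agent.H19.S43

open Matrix Cfsg.Agent.H45 Cfsg.Agent.H45.S43

universe u v

theorem card_filter_snd_eq_zero (F : Type v) [Field F] [Fintype F] [DecidableEq F] :
    (Finset.univ.filter (fun l : Fin 2 → F => l 1 = 0)).card = Fintype.card F := by
  have h5 : (Finset.univ.filter (fun l : Fin 2 → F => l 1 = 0)) =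
      Finset.univ.image (fun x : F => ![x, 0]) := by
    ext l
    simp only [Finset.mem_filter, Finset.mem_univ, true_and, Finset.mem_image]
    constructor
    · intro h
      refine ⟨l 0, ?_⟩
      ext i
      fin_cases i
      · simp
      · simp [h]
    · rintro ⟨x, rfl⟩
      simp
  rw [h5, Finset.card_image_of_injective, Finset.card_univ]
  intro x y hxy
  have := congrFun hxy 0
  simpa using this

theorem card_filter_snd_ne_zero (F : Type v) [Field F] [Fintype F] [DecidableEq F] :
    (Finset.univ.filter (fun l : Fin 2 → F => l 1 ≠ 0)).card =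
      Fintype.card F ^ 2 - Fintype.card F := by
  have h : (Finset.univ.filter (fun l : Fin 2 → F => l 1 = 0)).card +
      (Finset.univ.filter (fun l : Fin 2 → F => l 1 ≠ 0)).card =
      (Finset.univ : Finset (Fin 2 → F)).card :=
    Finset.card_filter_add_card_filter_not (s := (Finset.univ : Finset (Fin 2 → F)))
      (fun l : Fin 2 → F => l 1 = 0)
  rw [card_filter_snd_eq_zero, Finset.card_univ, Fintype.card_fun, Fintype.card_fin] at h
  omega

theorem countA : StCountA.{u, v} := by
  intro G _ F _ _ D ψ hψ k R hall hex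
  obtain ⟨l₀, hl₀, hl₀ne⟩ := hex
  classical
  have hq : (Fintype.card F : ℂ) ≠ 0 := Nat.cast_ne_zero.mpr Fintype.card_ne_zero
  have h1 := card_lsIdem_ne_zero_le ψ R D.uA hψ hq D.uA_add
  rw [Nat.card_eq_fintype_card, Fintype.card_subtype] at h1
  have h2 : insert l₀ (Finset.univ.filter (fun l : Fin 2 → F => l 1 ≠ 0)) ⊆
      Finset.univ.filter (fun l => lsIdem ψ R D.uA l ≠ 0) := by
    intro l hl
    rw [Finset.mem_insert] at hl
    rw [Finset.mem_filter]
    refine ⟨Finset.mem_univ _, ?_⟩
    rcases hl with rfl | hl
    · exact hl₀ne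
    · exact hall l (Finset.mem_filter.mp hl).2
  have h3 := Finset.card_le_card h2
  rw [Finset.card_insert_of_notMem (by simp [hl₀]), card_filter_snd_ne_zero] at h3
  omega

example : Cfsg.Agent.H45.S43.StCountA.{u, v} := countA

end Cfsg.Agent.H19.S43
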