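import Cfsg.Agent.H45.S43Defs

/-!
# S43-EX (helper19, for helper45, S2343): if `Z` acts non-trivially, some character non-trivial
on `Z` occurs.
-/

set_option autoImplicit false

namespace Cfsg.Agent.H19.S43

open Matrix Cfsg.Agent.H45 Cfsg.Agent.H45.S43

universe u v

theorem ex : StEx.{u, v} := by
  intro G _ F _ _ D ψ hψ k R hR
  have hq : (Fintype.card F : ℂ) ≠ 0 := Nat.cast_ne_zero.mpr Fintype.card_ne_zero
  have ha₀ : R (D.uA ![0, 1]) ≠ 1 := by
    have : D.uA ![0, 1] = D.A 0 1 := by simp [ReeRel.uA]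
    rw [this]
    exact hR
  obtain ⟨l, hl, hne⟩ := exists_lsIdem_ne_zero ψ R D.uA hψ hq D.uA_add ![0, 1] ha₀
    {l | l 1 ≠ 0} (by
      intro l hl
      simp only [Set.mem_ofPred_eq, not_not] at hl
      have : l ⬝ᵥ ![0, 1] = 0 := by
        simp [dotProduct, Fin.sum_univ_two, hl]
      rw [this, AddChar.map_zero_eq_one])
  exact ⟨l, hl, hne⟩

example : Cfsg.Agent.H45.S43.StEx.{u, v} := ex

end Cfsg.Agent.H19.S43
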