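import Mathlib
import Cfsg.Agent.H97.SuLDefs

/-!
# S2334/S2335 (helper97's project): finite field facts on `F` with `q²` elements, the fixed
field `F₀ = {r | r^q = r}` and the trace-zero line `K = {c | c^q = -c}`; characters of `K`.
Base lemmas for SuL-ZINJ, SuL-FSEP, SuL-CSA, SuL-CSB, SuL-CSOLVE.
-/

set_option autoImplicit false

namespace Cfsg.Agent.H19.SuL

open Module Cfsg.Agent.H17 Cfsg.Agent.H97.SuL

universe u

variable {F : Type u} [Field F] [Fintype F] {q : ℕ}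

theorem q_ne_zero (hF : Fintype.card F = q ^ 2) : q ≠ 0 := by
  have := two_le_of_card_sq hF
  omega

omit [Fintype F] in
theorem mulK {r c : F} (hr : r ^ q = r) (hc : c ^ q = -c) : (r * c) ^ q = -(r * c) := by
  rw [mul_pow, hr, hc]; ring

theorem lam_ne_zero (hF : Fintype.card F = q ^ 2) {lam : F → ℂ} (h0 : lam 0 = 1)
    (hmul : ∀ c d : F, c ^ q = -c → d ^ q = -d → lam (c + d) = lam c * lam d)
    {c : F} (hc : c ^ q = -c) : lam c ≠ 0 := by
  intro h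
  have hneg : (-c) ^ q = -(-c) := by rw [frob_neg hF, hc]
  have h1 := hmul c (-c) hc hneg
  rw [add_neg_cancel, h0, h, zero_mul] at h1
  exact one_ne_zero h1

theorem lam_ne_of_add (hF : Fintype.card F = q ^ 2) {lam : F → ℂ} (h0 : lam 0 = 1)
    (hmul : ∀ c d : F, c ^ q = -c → d ^ q = -d → lam (c + d) = lam c * lam d)
    {B c₀ : F} (hB : B ^ q = -B) (hc₀ : c₀ ^ q = -c₀) (hne : lam c₀ ≠ 1) :
    lam (B + c₀) ≠ lam B := by
  rw [hmul B c₀ hB hc₀]
  intro h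
  have hB0 := lam_ne_zero hF h0 hmul hB
  apply hne
  have h1 : lam B * lam c₀ = lam B * 1 := by rw [h, mul_one]
  exact mul_left_cancel₀ hB0 h1

theorem zInj_core (hF : Fintype.card F = q ^ 2) {lam : F → ℂ} (h0 : lam 0 = 1)
    (hmul : ∀ c d : F, c ^ q = -c → d ^ q = -d → lam (c + d) = lam c * lam d)
    (hex : ∃ c : F, c ^ q = -c ∧ lam c ≠ 1) {r r' : F} (hr : r ^ q = r) (hr' : r' ^ q = r')
    (hne : r ≠ r') : ∃ c : F, c ^ q = -c ∧ lam (r * c) ≠ lam (r' * c) := by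
  obtain ⟨c₀, hc₀, hl⟩ := hex
  have hd : r - r' ≠ 0 := sub_ne_zero.mpr hne
  have hdq : (r - r') ^ q = r - r' := by rw [frob_sub hF, hr, hr']
  have hc : (c₀ * (r - r')⁻¹) ^ q = -(c₀ * (r - r')⁻¹) := by
    rw [mul_pow, inv_pow, hdq, hc₀]; ring
  refine ⟨c₀ * (r - r')⁻¹, hc, ?_⟩
  have e : r * (c₀ * (r - r')⁻¹) = r' * (c₀ * (r - r')⁻¹) + c₀ := by
    field_simp
    ring
  rw [e]
  exact lam_ne_of_add hF h0 hmul (mulK hr' hc) hc₀ hl

/-- uniqueness form of ZINJ -/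
theorem zInj_unique (hF : Fintype.card F = q ^ 2) {lam : F → ℂ} (h0 : lam 0 = 1)
    (hmul : ∀ c d : F, c ^ q = -c → d ^ q = -d → lam (c + d) = lam c * lam d)
    (hex : ∃ c : F, c ^ q = -c ∧ lam c ≠ 1) {r r' : F} (hr : r ^ q = r) (hr' : r' ^ q = r')
    (h : ∀ c : F, c ^ q = -c → lam (r * c) = lam (r' * c)) : r = r' := by
  by_contra hne
  obtain ⟨c, hc, hl⟩ := zInj_core hF h0 hmul hex hr hr' hne
  exact hl (h c hc)

theorem zInj : StZInj.{u} := by
  intro F _ _ q hF lam h0 hmul hex r r' hr hr' hne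
  exact zInj_core hF h0 hmul hex hr hr' hne

example : StZInj.{u} := zInj

end Cfsg.Agent.H19.SuL
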