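import Mathlib
import Cfsg.Agent.H97.SuLDefs
import Cfsg.Agent.H19.SuLFq

/-!
# SuL-CSA (piece of helper97's S2334/S2335 project): every character of `K = {c | c^q = -c}` is
`d ↦ lam (m d)` for some `m ∈ F_q`, when `lam` is a nontrivial character of `K`.
-/

set_option autoImplicit false

namespace Cfsg.Agent.H19.SuL

open Module Cfsg.Agent.H17 Cfsg.Agent.H97.SuL

universe u

theorem cSA : StCSA.{u} := by
  intro F _ _ q hF lam mu h0 hmul hex hmu0 hmumul
  classical
  have hq0 := q_ne_zero hF
  let K : AddSubgroup F :=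
    { carrier := {c | c ^ q = -c}
      add_mem' := by
        intro a b ha hb
        show (a + b) ^ q = -(a + b)
        rw [frob_add hF, show a ^ q = -a from ha, show b ^ q = -b from hb]; ring
      zero_mem' := by show (0 : F) ^ q = -0; rw [zero_pow hq0, neg_zero]
      neg_mem' := by
        intro a ha
        show (-a) ^ q = -(-a)
        rw [frob_neg hF, show a ^ q = -a from ha] }
  have hKmem : ∀ c : ↥K, (c : F) ^ q = -(c : F) := fun c => c.2
  let Φ : {r : F // r ^ q = r} → AddChar ↥K ℂ := fun r =>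
    { toFun := fun d => lam (r.1 * (d : F))
      map_zero_eq_one' := by
        show lam (r.1 * ((0 : ↥K) : F)) = 1
        rw [AddSubgroup.coe_zero, mul_zero, h0]
      map_add_eq_mul' := by
        intro a b
        show lam (r.1 * ((a + b : ↥K) : F)) = lam (r.1 * (a : F)) * lam (r.1 * (b : F))
        rw [AddSubgroup.coe_add, mul_add]
        exact hmul _ _ (mulK r.2 (hKmem a)) (mulK r.2 (hKmem b)) }
  let ψ : AddChar ↥K ℂ :=
    { toFun := fun d => mu (d : F)
      map_zero_eq_one' := by
        show mu ((0 : ↥K) : F) = 1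
        rw [AddSubgroup.coe_zero, hmu0]
      map_add_eq_mul' := by
        intro a b
        show mu ((a + b : ↥K) : F) = mu (a : F) * mu (b : F)
        rw [AddSubgroup.coe_add]
        exact hmumul _ _ (hKmem a) (hKmem b) }
  have hΦinj : Function.Injective Φ := by
    intro r r' h
    apply Subtype.ext
    apply zInj_unique hF h0 hmul hex r.2 r'.2
    intro c hc
    have h1 := DFunLike.congr_fun h (⟨c, hc⟩ : ↥K)
    exact h1
  obtain ⟨ε, hε0, hεq⟩ := exists_eps hF
  let e : {r : F // r ^ q = r} ≃ ↥K :=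
    { toFun := fun r => ⟨ε * r.1, by
        show (ε * r.1) ^ q = -(ε * r.1)
        rw [mul_pow, hεq, r.2]; ring⟩
      invFun := fun c => ⟨ε⁻¹ * (c : F), by
        rw [mul_pow, inv_pow, hεq, hKmem c]
        field_simp⟩
      left_inv := fun r => by
        apply Subtype.ext
        show ε⁻¹ * (ε * r.1) = r.1
        rw [inv_mul_cancel_left₀ hε0]
      right_inv := fun c => by
        apply Subtype.ext
        show ε * (ε⁻¹ * (c : F)) = (c : F)
        rw [mul_inv_cancel_left₀ hε0] }
  have hcard : Nat.card (AddChar ↥K ℂ) ≤ Nat.card {r : F // r ^ q = r} := by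
    have h1 : Fintype.card (AddChar ↥K ℂ) ≤ Fintype.card ↥K := AddChar.card_addChar_le ↥K ℂ
    rw [← Nat.card_eq_fintype_card, ← Nat.card_eq_fintype_card] at h1
    rw [Nat.card_congr e]
    exact h1
  have hbij := hΦinj.bijective_of_nat_card_le hcard
  obtain ⟨r, hr⟩ := hbij.2 ψ
  refine ⟨r.1, r.2, fun d hd => ?_⟩
  have h1 := DFunLike.congr_fun hr (⟨d, hd⟩ : ↥K)
  exact h1.symm

example : StCSA.{u} := cSA

end Cfsg.Agent.H19.SuL
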