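import Mathlib
import Cfsg.Agent.H97.SuLDefs
import Cfsg.Agent.H19.SuLFq

/-!
# SuL-CSB (piece of helper97's S2334/S2335 project): `F_q`-linear maps `F → F_q` are trace
forms `x ↦ κ₀ x + (κ₀ x)^q`.
-/

set_option autoImplicit false

namespace Cfsg.Agent.H19.SuL

open Module Cfsg.Agent.H17 Cfsg.Agent.H97.SuL

universe u

theorem cSB : StCSB.{u} := by
  intro F _ _ q hF κ hκq hadd hhom
  obtain ⟨ω, hω⟩ : ∃ ω : F, ω ^ q ≠ ω := by
    by_contra hcon
    push Not at hcon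
    exact frobHom_ne_id hF (RingHom.ext hcon)
  obtain ⟨D, hD⟩ : ∃ D : F, D = ω ^ q - ω := ⟨_, rfl⟩
  have hD0 : D ≠ 0 := by rw [hD]; exact sub_ne_zero.mpr hω
  have hDq : D ^ q = -D := by rw [hD, frob_sub hF, frob_frob hF]; ring
  obtain ⟨a, ha⟩ : ∃ a, a = κ 1 := ⟨_, rfl⟩
  obtain ⟨b, hb⟩ : ∃ b, b = κ ω := ⟨_, rfl⟩
  have haq : a ^ q = a := by rw [ha]; exact hκq 1
  have hbq : b ^ q = b := by rw [hb]; exact hκq ω
  refine ⟨(a * ω ^ q - b) / D, fun x => ?_⟩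
  obtain ⟨t, ht⟩ : ∃ t : F, t = (x ^ q - x) / D := ⟨_, rfl⟩
  have htq : t ^ q = t := by
    rw [ht, div_pow, frob_sub hF, frob_frob hF, hDq]
    field_simp
    ring
  obtain ⟨s, hs⟩ : ∃ s : F, s = x - t * ω := ⟨_, rfl⟩
  have htD : t * D = x ^ q - x := by rw [ht]; field_simp
  have hsq : s ^ q = s := by
    rw [hs, frob_sub hF, mul_pow, htq]
    have h1 : t * ω ^ q = t * D + t * ω := by rw [hD]; ring
    rw [h1, htD]
    ring
  have hx : x = s * 1 + t * ω := by rw [hs]; ring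
  have hκx : κ x = s * a + t * b := by
    have h1 : κ (s * 1 + t * ω) = s * a + t * b := by
      rw [hadd, hhom s 1 hsq, hhom t ω htq, ← ha, ← hb]
    rw [← hx] at h1
    exact h1
  have hfq : ((a * ω ^ q - b) / D * x) ^ q = (b - a * ω) / D * x ^ q := by
    rw [mul_pow, div_pow, frob_sub hF, mul_pow, frob_frob hF, haq, hbq, hDq]
    field_simp
    ring
  rw [hκx, hfq, hs]
  have hxq : x ^ q = t * D + x := by rw [htD]; ring
  rw [hxq]
  field_simp
  rw [hD]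
  ring

example : StCSB.{u} := cSB

end Cfsg.Agent.H19.SuL
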