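import Mathlib
import Cfsg.Agent.H97.SuLDefs
import Cfsg.Agent.H19.SuLFq
import Cfsg.Agent.H19.SuLCSA
import Cfsg.Agent.H19.SuLCSB

/-!
# SuL-CSOLVE (piece of helper97's S2334/S2335 project): the character equation of step (II):
there is `β` with `mu d * al (d β) * lam (d N(β)) = 1` for all `d ∈ K`.
-/

set_option autoImplicit false

namespace Cfsg.Agent.H19.SuL

open Module Cfsg.Agent.H17 Cfsg.Agent.H97.SuL

universe u

theorem cSolve (hA : StCSA.{u}) (hB : StCSB.{u}) : StCSolve.{u} := by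
  intro F _ _ q hF lam mu al h0 hmul hex hmu0 hmumul hal0 haladd
  have hq0 := q_ne_zero hF
  obtain ⟨m, hmq, hm⟩ := hA hF lam mu h0 hmul hex hmu0 hmumul
  have hκex : ∀ β : F, ∃ k : F, k ^ q = k ∧ ∀ d : F, d ^ q = -d → al (d * β) = lam (k * d) := by
    intro β
    exact hA hF lam (fun d => al (d * β)) h0 hmul hex
      (by show al (0 * β) = 1; rw [zero_mul, hal0])
      (fun c d _ _ => by
        show al ((c + d) * β) = al (c * β) * al (d * β)
        rw [add_mul, haladd])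
  choose κ hκq hκ using hκex
  have hκadd : ∀ x y, κ (x + y) = κ x + κ y := by
    intro x y
    apply zInj_unique hF h0 hmul hex (hκq _) (by rw [frob_add hF, hκq, hκq])
    intro c hc
    rw [← hκ (x + y) c hc, mul_add, haladd, hκ x c hc, hκ y c hc, add_mul]
    exact (hmul _ _ (mulK (hκq x) hc) (mulK (hκq y) hc)).symm
  have hκhom : ∀ r x : F, r ^ q = r → κ (r * x) = r * κ x := by
    intro r x hr
    apply zInj_unique hF h0 hmul hex (hκq _) (by rw [mul_pow, hr, hκq])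
    intro c hc
    rw [← hκ (r * x) c hc]
    have h1 : c * (r * x) = (r * c) * x := by ring
    rw [h1, hκ x (r * c) (mulK hr hc)]
    congr 1
    ring
  obtain ⟨κ₀, hκ₀⟩ := hB hF κ hκq hκadd hκhom
  have hnorm : ∃ γ : F, γ * γ ^ q = κ₀ * κ₀ ^ q - m := by
    by_cases hc0 : κ₀ * κ₀ ^ q - m = 0
    · exact ⟨0, by rw [hc0, zero_mul]⟩
    · have hcq : (κ₀ * κ₀ ^ q - m) ^ q = κ₀ * κ₀ ^ q - m := by
        rw [frob_sub hF, mul_pow, frob_frob hF, hmq]; ring
      obtain ⟨t, ht⟩ := exists_norm_eq (frobHom hF) (frobHom_ne_id hF) (frobHom_invol hF) _ hc0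
        (by rw [frobHom_apply]; exact hcq)
      exact ⟨t, by rw [← ht, frobHom_apply]⟩
  obtain ⟨γ, hγ⟩ := hnorm
  obtain ⟨β, hβ⟩ : ∃ β : F, β = γ - κ₀ ^ q := ⟨_, rfl⟩
  refine ⟨β, fun d hd => ?_⟩
  have hβq : β ^ q = γ ^ q - κ₀ := by rw [hβ, frob_sub hF, frob_frob hF]
  have hNq : (β ^ (q + 1)) ^ q = β ^ (q + 1) := by
    rw [pow_succ, mul_pow, frob_frob hF, mul_comm]
  have hsum : m + κ β + β ^ (q + 1) = 0 := by
    rw [hκ₀ β, pow_succ, mul_pow, hβq, hβ]
    linear_combination hγ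
  have hK1 : (m * d + κ β * d) ^ q = -(m * d + κ β * d) := by
    rw [frob_add hF, mulK hmq hd, mulK (hκq β) hd]; ring
  rw [hm d hd, hκ β d hd, show d * β ^ (q + 1) = β ^ (q + 1) * d by ring,
    ← hmul _ _ (mulK hmq hd) (mulK (hκq β) hd), ← hmul _ _ hK1 (mulK hNq hd)]
  have hz : m * d + κ β * d + β ^ (q + 1) * d = 0 := by
    rw [← add_mul, ← add_mul, hsum, zero_mul]
  rw [hz, h0]

/-- hypothesis-free form -/
theorem cSolve' : StCSolve.{u} := cSolve cSA cSB

example (hA : StCSA.{u}) (hB : StCSB.{u}) : StCSolve.{u} := cSolve hA hB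
example : StCSolve.{u} := cSolve'

end Cfsg.Agent.H19.SuL
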