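import Mathlib
import Cfsg.Agent.H97.SuLDefs
import Cfsg.Agent.H19.SuLFq

/-!
# SuL-FSEP (piece of helper97's S2334/S2335 project): separation of the characters of `F_q^m`
coming from the commutator pairing.
-/

set_option autoImplicit false

namespace Cfsg.Agent.H19.SuL

open Module Cfsg.Agent.H17 Cfsg.Agent.H97.SuL

universe u

theorem fSep : StFSep.{u} := by
  intro F _ _ q hF m lam h0 hmul hex ω hω b b' hb hb' hne
  obtain ⟨c₀, hc₀, hl⟩ := hex
  obtain ⟨i, hi⟩ : ∃ i, b i ≠ b' i := by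
    by_contra hcon
    push Not at hcon
    exact hne (funext hcon)
  have hq0 := q_ne_zero hF
  obtain ⟨D, hD⟩ : ∃ D : F, D = ω ^ q - ω := ⟨_, rfl⟩
  have hD0 : D ≠ 0 := by rw [hD]; exact sub_ne_zero.mpr hω
  have hDq : D ^ q = -D := by rw [hD, frob_sub hF, frob_frob hF]; ring
  have hbi : b i - b' i ≠ 0 := sub_ne_zero.mpr hi
  have hbq : (b i - b' i) ^ q = b i - b' i := by rw [frob_sub hF, hb i, hb' i]
  obtain ⟨ρ₀, hρ⟩ : ∃ ρ₀ : F, ρ₀ = c₀ * (D * (b i - b' i))⁻¹ := ⟨_, rfl⟩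
  have hρq : ρ₀ ^ q = ρ₀ := by
    rw [hρ, mul_pow, inv_pow, mul_pow, hDq, hbq, hc₀]
    field_simp
  classical
  refine ⟨Pi.single i ρ₀, ?_, ?_⟩
  · intro j
    by_cases hj : j = i
    · subst hj; rw [Pi.single_eq_same]; exact hρq
    · rw [Pi.single_eq_of_ne hj, zero_pow hq0]
  · have s1 : ∀ β : Fin m → F, ∑ j, (Pi.single i ρ₀ : Fin m → F) j * β j = ρ₀ * β i := by
      intro β
      rw [Finset.sum_eq_single i]
      · rw [Pi.single_eq_same]
      · intro j _ hj; rw [Pi.single_eq_of_ne hj, zero_mul]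
      · intro h; exact absurd (Finset.mem_univ i) h
    rw [s1 b, s1 b', ← hD]
    have hB : (D * (ρ₀ * b' i)) ^ q = -(D * (ρ₀ * b' i)) := by
      rw [mul_pow, mul_pow, hDq, hρq, hb' i]; ring
    have e : D * (ρ₀ * b i) = D * (ρ₀ * b' i) + c₀ := by
      rw [hρ]
      field_simp
      ring
    rw [e]
    exact lam_ne_of_add hF h0 hmul hB hc₀ hl

example : StFSep.{u} := fSep

end Cfsg.Agent.H19.SuL
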