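import Cfsg.Agent.H4.TnDefs

/-!
# S3805 team project (helper4): elementary computations in the configuration `Cfg` (helper19)
-/

set_option autoImplicit false

namespace Cfsg.Agent.H19.Tn

open Subgroup Cfsg.Agent.H4.Tn

universe u

variable {G : Type u} [Group G] {T : Subgroup G} {a b u v : G}

theorem cab (cfg : Cfg G T a b u v) : Commute a b := cfg.comm a cfg.aT b cfg.bT

theorem a_ne_one (cfg : Cfg G T a b u v) : a ≠ 1 := by
  intro h
  have := (cfg.indep 1 0 (by simp [h])).1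
  omega

theorem b_ne_one (cfg : Cfg G T a b u v) : b ≠ 1 := by
  intro h
  have := (cfg.indep 0 1 (by simp [h])).2
  omega

theorem a_inv_ne (cfg : Cfg G T a b u v) : a⁻¹ ≠ a := by
  intro h
  have h2 : a ^ 2 = 1 := by
    rw [pow_two]; nth_rewrite 1 [← h]; exact inv_mul_cancel a
  have := (cfg.indep 2 0 (by simp [h2])).1
  omega

theorem b_inv_ne (cfg : Cfg G T a b u v) : b⁻¹ ≠ b := by
  intro h
  have h2 : b ^ 2 = 1 := by
    rw [pow_two]; nth_rewrite 1 [← h]; exact inv_mul_cancel b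
  have := (cfg.indep 0 2 (by simp [h2])).2
  omega

theorem u_not_mem (cfg : Cfg G T a b u v) : u ∉ T := by
  intro h
  have h1 := cfg.comm u h b cfg.bT
  rw [cfg.ub] at h1
  exact b_inv_ne cfg (mul_right_cancel h1)

theorem v_not_mem (cfg : Cfg G T a b u v) : v ∉ T := by
  intro h
  have h1 := cfg.comm v h a cfg.aT
  rw [cfg.va] at h1
  exact a_inv_ne cfg (mul_right_cancel h1)

theorem ab_mem (cfg : Cfg G T a b u v) (i j : ℕ) : a ^ i * b ^ j ∈ T :=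
  T.mul_mem (T.pow_mem cfg.aT i) (T.pow_mem cfg.bT j)

theorem ab_inj (cfg : Cfg G T a b u v) {i j i' j' : ℕ} (h : a ^ i * b ^ j = a ^ i' * b ^ j') :
    3 ∣ i + 2 * i' ∧ 3 ∣ j + 2 * j' := by
  apply cfg.indep
  have hab : Commute a b := cab cfg
  have e1 : a ^ (i + 2 * i') * b ^ (j + 2 * j') = (a ^ i * b ^ j) * (a ^ (2 * i') * b ^ (2 * j')) := by
    rw [pow_add, pow_add]
    have h1 := (hab.pow_pow (2 * i') j).eq
    calc a ^ i * a ^ (2 * i') * (b ^ j * b ^ (2 * j'))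
        = a ^ i * (a ^ (2 * i') * b ^ j) * b ^ (2 * j') := by simp only [mul_assoc]
      _ = a ^ i * (b ^ j * a ^ (2 * i')) * b ^ (2 * j') := by rw [h1]
      _ = _ := by simp only [mul_assoc]
  rw [e1, h]
  have e2 : (a ^ i' * b ^ j') * (a ^ (2 * i') * b ^ (2 * j')) = a ^ (3 * i') * b ^ (3 * j') := by
    have h1 := (hab.pow_pow (2 * i') j').eq
    calc (a ^ i' * b ^ j') * (a ^ (2 * i') * b ^ (2 * j'))
        = a ^ i' * (b ^ j' * a ^ (2 * i')) * b ^ (2 * j') := by simp only [mul_assoc]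
      _ = a ^ i' * (a ^ (2 * i') * b ^ j') * b ^ (2 * j') := by rw [h1]
      _ = a ^ (i' + 2 * i') * b ^ (j' + 2 * j') := by rw [pow_add, pow_add]; simp only [mul_assoc]
      _ = _ := by
        have e3 : i' + 2 * i' = 3 * i' := by ring
        have e4 : j' + 2 * j' = 3 * j' := by ring
        rw [e3, e4]
  rw [e2, pow_mul, pow_mul, cfg.a3, cfg.b3, one_pow, one_pow, one_mul]

theorem ab_inj' (cfg : Cfg G T a b u v) {i j i' j' : ℕ} (hi : i < 3) (hi' : i' < 3) (hj : j < 3)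
    (hj' : j' < 3) (h : a ^ i * b ^ j = a ^ i' * b ^ j') : i = i' ∧ j = j' := by
  obtain ⟨h1, h2⟩ := ab_inj cfg h
  constructor <;> omega

theorem a_pow_mod (cfg : Cfg G T a b u v) (i : ℕ) : a ^ i = a ^ (i % 3) := pow_eq_pow_mod i cfg.a3

theorem b_pow_mod (cfg : Cfg G T a b u v) (j : ℕ) : b ^ j = b ^ (j % 3) := pow_eq_pow_mod j cfg.b3

theorem a_pow_pow3 (cfg : Cfg G T a b u v) (i : ℕ) : (a ^ i) ^ 3 = 1 := by
  rw [← pow_mul, mul_comm, pow_mul, cfg.a3, one_pow]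

theorem b_pow_pow3 (cfg : Cfg G T a b u v) (j : ℕ) : (b ^ j) ^ 3 = 1 := by
  rw [← pow_mul, mul_comm, pow_mul, cfg.b3, one_pow]

theorem ab_pow3 (cfg : Cfg G T a b u v) (i j : ℕ) : (a ^ i * b ^ j) ^ 3 = 1 := by
  rw [((cab cfg).pow_pow i j).mul_pow, a_pow_pow3 cfg, b_pow_pow3 cfg, one_mul]

/-- If `x` inverts `t` and `t ^ 3 = 1` then `t * x` is conjugate to `x`. -/
theorem conj_of_inverts {x t : G} (h : SemiconjBy x t t⁻¹) (h3 : t ^ 3 = 1) : IsConj x (t * x) := by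
  rw [isConj_iff]
  refine ⟨t⁻¹, ?_⟩
  rw [inv_inv, mul_assoc, h.eq, ← mul_assoc]
  congr 1
  rw [← mul_inv_rev, inv_eq_iff_mul_eq_one, ← pow_three']
  exact h3

theorem v_inv_apow (cfg : Cfg G T a b u v) (i : ℕ) : SemiconjBy v (a ^ i) (a ^ i)⁻¹ := by
  have h : SemiconjBy v a a⁻¹ := cfg.va
  have := h.pow_right i
  rwa [inv_pow] at this

theorem u_inv_bpow (cfg : Cfg G T a b u v) (j : ℕ) : SemiconjBy u (b ^ j) (b ^ j)⁻¹ := by
  have h : SemiconjBy u b b⁻¹ := cfg.ub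
  have := h.pow_right j
  rwa [inv_pow] at this

theorem uv_inv_a (cfg : Cfg G T a b u v) : SemiconjBy (u * v) a a⁻¹ :=
  SemiconjBy.mul_left (show SemiconjBy u a⁻¹ a⁻¹ from (show Commute u a from cfg.ua).inv_right)
    (show SemiconjBy v a a⁻¹ from cfg.va)

theorem uv_inv_b (cfg : Cfg G T a b u v) : SemiconjBy (u * v) b b⁻¹ :=
  SemiconjBy.mul_left (show SemiconjBy u b b⁻¹ from cfg.ub) (show SemiconjBy v b b from cfg.vb)

theorem uv_inv_ab (cfg : Cfg G T a b u v) (i j : ℕ) :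
    SemiconjBy (u * v) (a ^ i * b ^ j) (a ^ i * b ^ j)⁻¹ := by
  have h1 : SemiconjBy (u * v) (a ^ i) (a ^ i)⁻¹ := by
    have := (uv_inv_a cfg).pow_right i
    rwa [inv_pow] at this
  have h2 : SemiconjBy (u * v) (b ^ j) (b ^ j)⁻¹ := by
    have := (uv_inv_b cfg).pow_right j
    rwa [inv_pow] at this
  have e : (a ^ i * b ^ j)⁻¹ = (a ^ i)⁻¹ * (b ^ j)⁻¹ := by
    rw [mul_inv_rev]; exact (((cab cfg).pow_pow i j).inv_inv).eq.symm
  rw [e]
  exact h1.mul_right h2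

/-- The elements `a^i b^j uv` are conjugate to `uv`. -/
theorem conj_uv (cfg : Cfg G T a b u v) (i j : ℕ) : IsConj (u * v) (a ^ i * b ^ j * (u * v)) :=
  conj_of_inverts (uv_inv_ab cfg i j) (ab_pow3 cfg i j)

theorem N_form (cfg : Cfg G T a b u v) {y : G} (hy : y ∈ normalizer (T : Set G)) :
    ∃ i j : ℕ, y = a ^ i * b ^ j ∨ y = a ^ i * b ^ j * u ∨ y = a ^ i * b ^ j * v ∨
      y = a ^ i * b ^ j * (u * v) := by
  obtain ⟨t, ht, h⟩ := cfg.Nelts y hy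
  obtain ⟨i, j, rfl⟩ := cfg.Telts t ht
  exact ⟨i, j, h⟩

theorem sq_tv (cfg : Cfg G T a b u v) (i j : ℕ) :
    (a ^ i * b ^ j * v) * (a ^ i * b ^ j * v) = b ^ (j + j) := by
  have h1 : SemiconjBy v (a ^ i * b ^ j) ((a ^ i)⁻¹ * b ^ j) :=
    SemiconjBy.mul_right (v_inv_apow cfg i)
      (show SemiconjBy v (b ^ j) (b ^ j) from (show Commute v b from cfg.vb).pow_right j)
  have h2 : b ^ j * (a ^ i)⁻¹ = (a ^ i)⁻¹ * b ^ j := (((cab cfg).pow_pow i j).inv_left).eq.symm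
  calc (a ^ i * b ^ j * v) * (a ^ i * b ^ j * v)
      = a ^ i * b ^ j * (v * (a ^ i * b ^ j)) * v := by simp only [mul_assoc]
    _ = a ^ i * b ^ j * ((a ^ i)⁻¹ * b ^ j * v) * v := by rw [h1.eq]
    _ = a ^ i * (b ^ j * (a ^ i)⁻¹) * b ^ j * (v * v) := by simp only [mul_assoc]
    _ = a ^ i * ((a ^ i)⁻¹ * b ^ j) * b ^ j * (v * v) := by rw [h2]
    _ = b ^ (j + j) := by rw [cfg.v2, pow_add]; group

theorem sq_tu (cfg : Cfg G T a b u v) (i j : ℕ) :
    (a ^ i * b ^ j * u) * (a ^ i * b ^ j * u) = a ^ (i + i) := by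
  have h1 : SemiconjBy u (a ^ i * b ^ j) (a ^ i * (b ^ j)⁻¹) :=
    SemiconjBy.mul_right (show SemiconjBy u (a ^ i) (a ^ i) from (show Commute u a from cfg.ua).pow_right i)
      (u_inv_bpow cfg j)
  have h2 : b ^ j * a ^ i = a ^ i * b ^ j := ((cab cfg).pow_pow i j).eq.symm
  calc (a ^ i * b ^ j * u) * (a ^ i * b ^ j * u)
      = a ^ i * b ^ j * (u * (a ^ i * b ^ j)) * u := by simp only [mul_assoc]
    _ = a ^ i * b ^ j * (a ^ i * (b ^ j)⁻¹ * u) * u := by rw [h1.eq]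
    _ = a ^ i * (b ^ j * a ^ i) * (b ^ j)⁻¹ * (u * u) := by simp only [mul_assoc]
    _ = a ^ i * (a ^ i * b ^ j) * (b ^ j)⁻¹ * (u * u) := by rw [h2]
    _ = a ^ (i + i) := by rw [cfg.u2, pow_add]; group

theorem sq_of_conj {x y : G} (hx : x * x = 1) (h : IsConj x y) : y * y = 1 := by
  obtain ⟨c, rfl⟩ := isConj_iff.mp h
  calc c * x * c⁻¹ * (c * x * c⁻¹) = c * (x * x) * c⁻¹ := by group
    _ = 1 := by rw [hx]; group

end Cfsg.Agent.H19.Tn
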