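import Cfsg.Agent.H19.TnBase

/-!
# TN-IA12 (piece for helper4's S3805 project): if `uv ~ v`, exactly 12 conjugates of `v` invert `a`
-/

set_option autoImplicit false

namespace Cfsg.Agent.H19.Tn

open Subgroup Cfsg.Agent.H4.Tn

universe u

theorem ia12 (hT : StTIT.{u}) : StIA12.{u} := by
  intro G _ _ T a b u v cfg huvv
  let F : Fin 3 ⊕ (Fin 3 × Fin 3) → G := fun x => match x with
    | Sum.inl i => a ^ (i : ℕ) * v
    | Sum.inr p => a ^ (p.1 : ℕ) * b ^ (p.2 : ℕ) * (u * v)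
  have hF1 : ∀ x, IsConj v (F x) ∧ F x * a * (F x)⁻¹ = a⁻¹ := by
    rintro (i | ⟨i, j⟩)
    · refine ⟨conj_of_inverts (v_inv_apow cfg i) (a_pow_pow3 cfg i), ?_⟩
      have h : SemiconjBy (a ^ (i : ℕ) * v) a a⁻¹ :=
        SemiconjBy.mul_left (show SemiconjBy (a ^ (i : ℕ)) a⁻¹ a⁻¹ from (Commute.pow_self a i).inv_right)
          (show SemiconjBy v a a⁻¹ from cfg.va)
      exact mul_inv_eq_iff_eq_mul.mpr h.eq
    · refine ⟨huvv.symm.trans (conj_uv cfg i j), ?_⟩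
      have h : SemiconjBy (a ^ (i : ℕ) * b ^ (j : ℕ) * (u * v)) a a⁻¹ :=
        SemiconjBy.mul_left
          (show SemiconjBy (a ^ (i : ℕ) * b ^ (j : ℕ)) a⁻¹ a⁻¹ from
            (show Commute (a ^ (i : ℕ) * b ^ (j : ℕ)) a from cfg.comm _ (ab_mem cfg i j) a cfg.aT).inv_right)
          (uv_inv_a cfg)
      exact mul_inv_eq_iff_eq_mul.mpr h.eq
  have hinj : Function.Injective F := by
    rintro (i | ⟨i, j⟩) (i' | ⟨i', j'⟩) h
    · have h1 : a ^ (i : ℕ) * b ^ 0 = a ^ (i' : ℕ) * b ^ 0 := by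
        rw [pow_zero, mul_one, mul_one]; exact mul_right_cancel h
      have := (ab_inj' cfg i.2 i'.2 (by norm_num) (by norm_num) h1).1
      exact congrArg Sum.inl (Fin.ext this)
    · exfalso
      have h1 : a ^ (i : ℕ) * v = a ^ (i' : ℕ) * b ^ (j' : ℕ) * u * v := by
        rw [mul_assoc _ u v]; exact h
      have h2 : a ^ (i : ℕ) = a ^ (i' : ℕ) * b ^ (j' : ℕ) * u := mul_right_cancel h1
      have h3 : u = (a ^ (i' : ℕ) * b ^ (j' : ℕ))⁻¹ * a ^ (i : ℕ) := by rw [h2]; group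
      exact u_not_mem cfg (by rw [h3]; exact T.mul_mem (T.inv_mem (ab_mem cfg _ _)) (T.pow_mem cfg.aT _))
    · exfalso
      have h1 : a ^ (i' : ℕ) * v = a ^ (i : ℕ) * b ^ (j : ℕ) * u * v := by
        rw [mul_assoc _ u v]; exact h.symm
      have h2 : a ^ (i' : ℕ) = a ^ (i : ℕ) * b ^ (j : ℕ) * u := mul_right_cancel h1
      have h3 : u = (a ^ (i : ℕ) * b ^ (j : ℕ))⁻¹ * a ^ (i' : ℕ) := by rw [h2]; group
      exact u_not_mem cfg (by rw [h3]; exact T.mul_mem (T.inv_mem (ab_mem cfg _ _)) (T.pow_mem cfg.aT _))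
    · have h1 : a ^ (i : ℕ) * b ^ (j : ℕ) = a ^ (i' : ℕ) * b ^ (j' : ℕ) := mul_right_cancel h
      obtain ⟨e1, e2⟩ := ab_inj' cfg i.2 i'.2 j.2 j'.2 h1
      exact congrArg Sum.inr (Prod.ext (Fin.ext e1) (Fin.ext e2))
  have hsurj : ∀ y, IsConj v y ∧ y * a * y⁻¹ = a⁻¹ → ∃ x, F x = y := by
    rintro y ⟨hc, hinv⟩
    have hyN : y ∈ normalizer (T : Set G) :=
      hT G T a b u v cfg a cfg.aT (a_ne_one cfg) y (by rw [hinv]; exact T.inv_mem cfg.aT)
    have hya : y * a = a⁻¹ * y := mul_inv_eq_iff_eq_mul.mp hinv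
    have hyy : y * y = 1 := sq_of_conj cfg.v2 hc
    obtain ⟨i, j, rfl | rfl | rfl | rfl⟩ := N_form cfg hyN
    · exfalso
      have h1 : a ^ i * b ^ j * a = a * (a ^ i * b ^ j) := cfg.comm _ (ab_mem cfg i j) a cfg.aT
      rw [h1] at hya
      exact a_inv_ne cfg (mul_right_cancel hya).symm
    · exfalso
      have h1 : a ^ i * b ^ j * u * a = a * (a ^ i * b ^ j * u) := by
        rw [mul_assoc, cfg.ua, ← mul_assoc, cfg.comm _ (ab_mem cfg i j) a cfg.aT, mul_assoc]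
      rw [h1] at hya
      exact a_inv_ne cfg (mul_right_cancel hya).symm
    · rw [sq_tv cfg i j] at hyy
      have h3 : 3 ∣ j := by
        have := (cfg.indep 0 (j + j) (by simpa using hyy)).2
        omega
      obtain ⟨k, rfl⟩ := h3
      refine ⟨Sum.inl ⟨i % 3, Nat.mod_lt _ (by norm_num)⟩, ?_⟩
      show a ^ (i % 3) * v = a ^ i * b ^ (3 * k) * v
      rw [← a_pow_mod cfg i, pow_mul, cfg.b3, one_pow, mul_one]
    · refine ⟨Sum.inr (⟨i % 3, Nat.mod_lt _ (by norm_num)⟩, ⟨j % 3, Nat.mod_lt _ (by norm_num)⟩), ?_⟩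
      show a ^ (i % 3) * b ^ (j % 3) * (u * v) = a ^ i * b ^ j * (u * v)
      rw [← a_pow_mod cfg i, ← b_pow_mod cfg j]
  have e : (Fin 3 ⊕ (Fin 3 × Fin 3)) ≃ {y : G // IsConj v y ∧ y * a * y⁻¹ = a⁻¹} :=
    Equiv.ofBijective (fun x => ⟨F x, hF1 x⟩)
      ⟨fun x x' h => hinj (congrArg Subtype.val h), fun ⟨y, hy⟩ => by
        obtain ⟨x, hx⟩ := hsurj y hy
        exact ⟨x, Subtype.ext hx⟩⟩
  rw [← Nat.card_congr e, Nat.card_eq_fintype_card]
  simp [Fintype.card_sum, Fintype.card_prod]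

example : Cfsg.Agent.H4.Tn.StTIT.{u} → Cfsg.Agent.H4.Tn.StIA12.{u} := ia12

end Cfsg.Agent.H19.Tn
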