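import Cfsg.Agent.H19.TnBase

/-!
# TN-IB9 (piece for helper4's S3805 project): if `uv ~ v` and `u ≁ v`, exactly 9 conjugates of `v` invert `b`
-/

set_option autoImplicit false

namespace Cfsg.Agent.H19.Tn

open Subgroup Cfsg.Agent.H4.Tn

universe u

theorem ib9 (hT : StTIT.{u}) : StIB9.{u} := by
  intro G _ _ T a b u v cfg huvv hnuv
  let F : Fin 3 × Fin 3 → G := fun p => a ^ (p.1 : ℕ) * b ^ (p.2 : ℕ) * (u * v)
  have hF1 : ∀ x, IsConj v (F x) ∧ F x * b * (F x)⁻¹ = b⁻¹ := by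
    rintro ⟨i, j⟩
    refine ⟨huvv.symm.trans (conj_uv cfg i j), ?_⟩
    have h : SemiconjBy (a ^ (i : ℕ) * b ^ (j : ℕ) * (u * v)) b b⁻¹ :=
      SemiconjBy.mul_left
        (show SemiconjBy (a ^ (i : ℕ) * b ^ (j : ℕ)) b⁻¹ b⁻¹ from
          (show Commute (a ^ (i : ℕ) * b ^ (j : ℕ)) b from cfg.comm _ (ab_mem cfg i j) b cfg.bT).inv_right)
        (uv_inv_b cfg)
    exact mul_inv_eq_iff_eq_mul.mpr h.eq
  have hinj : Function.Injective F := by
    rintro ⟨i, j⟩ ⟨i', j'⟩ h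
    have h1 : a ^ (i : ℕ) * b ^ (j : ℕ) = a ^ (i' : ℕ) * b ^ (j' : ℕ) := mul_right_cancel h
    obtain ⟨e1, e2⟩ := ab_inj' cfg i.2 i'.2 j.2 j'.2 h1
    exact Prod.ext (Fin.ext e1) (Fin.ext e2)
  have hsurj : ∀ y, IsConj v y ∧ y * b * y⁻¹ = b⁻¹ → ∃ x, F x = y := by
    rintro y ⟨hc, hinv⟩
    have hyN : y ∈ normalizer (T : Set G) :=
      hT G T a b u v cfg b cfg.bT (b_ne_one cfg) y (by rw [hinv]; exact T.inv_mem cfg.bT)
    have hyb : y * b = b⁻¹ * y := mul_inv_eq_iff_eq_mul.mp hinv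
    have hyy : y * y = 1 := sq_of_conj cfg.v2 hc
    obtain ⟨i, j, rfl | rfl | rfl | rfl⟩ := N_form cfg hyN
    · exfalso
      have h1 : a ^ i * b ^ j * b = b * (a ^ i * b ^ j) := cfg.comm _ (ab_mem cfg i j) b cfg.bT
      rw [h1] at hyb
      exact b_inv_ne cfg (mul_right_cancel hyb).symm
    · exfalso
      rw [sq_tu cfg i j] at hyy
      have h3 : 3 ∣ i := by
        have := (cfg.indep (i + i) 0 (by simpa using hyy)).1
        omega
      obtain ⟨k, rfl⟩ := h3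
      have e : a ^ (3 * k) * b ^ j * u = b ^ j * u := by rw [pow_mul, cfg.a3, one_pow, one_mul]
      rw [e] at hc
      exact hnuv ((conj_of_inverts (u_inv_bpow cfg j) (b_pow_pow3 cfg j)).trans hc.symm)
    · exfalso
      have h1 : a ^ i * b ^ j * v * b = b * (a ^ i * b ^ j * v) := by
        rw [mul_assoc, cfg.vb, ← mul_assoc, cfg.comm _ (ab_mem cfg i j) b cfg.bT, mul_assoc]
      rw [h1] at hyb
      exact b_inv_ne cfg (mul_right_cancel hyb).symm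
    · refine ⟨(⟨i % 3, Nat.mod_lt _ (by norm_num)⟩, ⟨j % 3, Nat.mod_lt _ (by norm_num)⟩), ?_⟩
      show a ^ (i % 3) * b ^ (j % 3) * (u * v) = a ^ i * b ^ j * (u * v)
      rw [← a_pow_mod cfg i, ← b_pow_mod cfg j]
  have e : (Fin 3 × Fin 3) ≃ {y : G // IsConj v y ∧ y * b * y⁻¹ = b⁻¹} :=
    Equiv.ofBijective (fun x => ⟨F x, hF1 x⟩)
      ⟨fun x x' h => hinj (congrArg Subtype.val h), fun ⟨y, hy⟩ => by
        obtain ⟨x, hx⟩ := hsurj y hy
        exact ⟨x, Subtype.ext hx⟩⟩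
  rw [← Nat.card_congr e, Nat.card_eq_fintype_card]
  simp [Fintype.card_prod]

example : Cfsg.Agent.H4.Tn.StTIT.{u} → Cfsg.Agent.H4.Tn.StIB9.{u} := ib9

end Cfsg.Agent.H19.Tn
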